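import Mathlib
import Cfsg.Agent.Lib.Helper67.LSF.Defs

/-!
# LSF (S5286) package [VSHAPE]
-/

set_option autoImplicit false

namespace Cfsg.Agent.Lib.Helper93.LSF

open Cfsg.Agent.Lib.Helper67.LSF

universe u

section

variable {X : Type u} [DecidableEq X]

theorem norm_mk_of_reduced {L : List (X × Bool)} (h : FreeGroup.IsReduced L) :
    (FreeGroup.mk L).norm = L.length := by
  unfold FreeGroup.norm
  rw [FreeGroup.toWord_mk, h.reduce_eq]

theorem norm_mul_mk_of_reduced (a : FreeGroup X) (M : List (X × Bool))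
    (h : FreeGroup.IsReduced (a.toWord ++ M)) : (a * FreeGroup.mk M).norm = a.norm + M.length := by
  have e : a * FreeGroup.mk M = FreeGroup.mk (a.toWord ++ M) := by
    rw [← FreeGroup.mul_mk, FreeGroup.mk_toWord]
  rw [e, norm_mk_of_reduced h, List.length_append]
  rfl

/-- One-letter step: either the word grows, or the last letter cancels. -/
theorem letter_dichotomy (a : FreeGroup X) (ℓ : X × Bool) :
    FreeGroup.IsReduced (a.toWord ++ [ℓ]) ∨
      ∃ W' : List (X × Bool), a.toWord = W' ++ [(ℓ.1, !ℓ.2)] := by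
  have hW : FreeGroup.IsReduced a.toWord := FreeGroup.isReduced_toWord
  rcases List.eq_nil_or_concat a.toWord with h0 | ⟨W', b, hb⟩
  · left
    rw [h0]
    exact FreeGroup.IsReduced.singleton
  · by_cases hinv : b.1 = ℓ.1 → b.2 = ℓ.2
    · left
      rw [hb]
      have h1 : FreeGroup.IsReduced (W' ++ [b]) := by
        rw [← List.concat_eq_append, ← hb]; exact hW
      have h2 : FreeGroup.IsReduced ([b] ++ [ℓ]) := by
        show FreeGroup.IsReduced (b :: ℓ :: [])
        rw [FreeGroup.isReduced_cons_cons]
        exact ⟨hinv, FreeGroup.IsReduced.singleton⟩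
      have h3 := FreeGroup.IsReduced.append_overlap h1 h2 (by simp)
      simpa using h3
    · right
      push Not at hinv
      obtain ⟨h1, h2⟩ := hinv
      refine ⟨W', ?_⟩
      rw [hb, List.concat_eq_append]
      have : b = (ℓ.1, !ℓ.2) := by
        rcases b with ⟨b1, b2⟩
        simp only at h1 h2
        subst h1
        congr 1
        cases b2 <;> cases hℓ : ℓ.2 <;> simp_all
      rw [this]

end

/-- [VSHAPE] -/
theorem pkgVShape : PkgVShape.{u} := by
  intro X _ a L₁ L₂ hred hL₁ hL₂
  induction L₁ generalizing a with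
  | nil => exact absurd rfl hL₁
  | cons ℓ L₁' ih =>
    rcases letter_dichotomy a ℓ with hup | ⟨W', hW'⟩
    · -- the word grows
      have h2 : FreeGroup.IsReduced ([ℓ] ++ (L₁' ++ L₂)) := hred
      have h3 := FreeGroup.IsReduced.append_overlap hup h2 (by simp)
      have e1 : a.toWord ++ [ℓ] ++ (L₁' ++ L₂) = a.toWord ++ ((ℓ :: L₁') ++ L₂) := by simp
      rw [e1] at h3
      have h4 : FreeGroup.IsReduced (a.toWord ++ (ℓ :: L₁')) :=
        h3.infix ⟨[], L₂, by simp⟩
      rw [norm_mul_mk_of_reduced a _ h3, norm_mul_mk_of_reduced a _ h4]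
      apply lt_max_of_lt_right
      have hpos : 0 < L₂.length := List.length_pos_of_ne_nil hL₂
      rw [List.length_append]
      omega
    · -- the last letter cancels
      have hWred : FreeGroup.IsReduced W' := by
        have hW : FreeGroup.IsReduced a.toWord := FreeGroup.isReduced_toWord
        rw [hW'] at hW
        exact hW.infix ⟨[], [(ℓ.1, !ℓ.2)], by simp⟩
      have ha : a = FreeGroup.mk W' * (FreeGroup.mk [ℓ])⁻¹ := by
        have h5 : (FreeGroup.mk [ℓ])⁻¹ = FreeGroup.mk [(ℓ.1, !ℓ.2)] := by
          rw [FreeGroup.inv_mk]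
          rfl
        rw [h5, FreeGroup.mul_mk, ← hW', FreeGroup.mk_toWord]
      have ha' : a * FreeGroup.mk [ℓ] = FreeGroup.mk W' := by
        rw [ha, inv_mul_cancel_right]
      have hn : a.norm = W'.length + 1 := by
        unfold FreeGroup.norm
        rw [hW', List.length_append]
        rfl
      have hn' : (FreeGroup.mk W').norm = W'.length := norm_mk_of_reduced hWred
      have hmul : ∀ M : List (X × Bool),
          a * FreeGroup.mk (ℓ :: M) = FreeGroup.mk W' * FreeGroup.mk M := by
        intro M
        rw [show ℓ :: M = [ℓ] ++ M from rfl, ← FreeGroup.mul_mk, ← mul_assoc, ha']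
      by_cases hL1 : L₁' = []
      · subst hL1
        apply lt_max_of_lt_left
        rw [ha', hn', hn]
        omega
      · have ih' := ih (FreeGroup.mk W') (hred.infix ⟨[ℓ], [], by simp⟩) hL1
        rw [hmul L₁', show (ℓ :: L₁') ++ L₂ = ℓ :: (L₁' ++ L₂) from rfl, hmul (L₁' ++ L₂)]
        refine lt_of_lt_of_le ih' (max_le_max ?_ le_rfl)
        rw [hn', hn]
        omega

end Cfsg.Agent.Lib.Helper93.LSF
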